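import Cfsg.Agent.Lib.PresSp.Vec
import Cfsg.Agent.Lib.PresSLn.TwoGen

/-!
# Two generators for the symplectic group: the basis vectors and the Levi subgroup
-/

set_option autoImplicit false

namespace Cfsg.Agent.Lib.PresSp.Two

open Matrix Cfsg Cfsg.Agent.Lib.Classical.SympForm Cfsg.Agent.Lib.PresSp.Vec Cfsg.Agent.Lib.PresSp.Tgt
  Cfsg.Agent.Lib.PresSp.Surj Cfsg.Agent.Lib.PresSp.M2 Cfsg.Agent.Lib.PresSp.Mono
  Cfsg.Agent.Lib.PresSLn.TwoGen Cfsg.Agent.Lib.PresSp.Abs

variable {m : ℕ} {F : Type*} [Field F]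

/-- The basis vectors. -/
def ee (i : Fin m) : VV m F := Pi.single (Sum.inl i) 1

/-- The basis vectors. -/
def ff (i : Fin m) : VV m F := Pi.single (Sum.inr i) 1

lemma fm_x_ee (x : VV m F) (i : Fin m) : sympForm m F x (ee i) = x (Sum.inr i) :=
  sympForm_single_inl x i

lemma fm_x_ff (x : VV m F) (i : Fin m) : sympForm m F x (ff i) = -x (Sum.inl i) :=
  sympForm_single_inr x i

lemma fm_ee_ee (i j : Fin m) : sympForm m F (ee i) (ee j) = 0 := by
  rw [fm_x_ee]
  simp [ee]

lemma fm_ff_ff (i j : Fin m) : sympForm m F (ff i) (ff j) = 0 := by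
  rw [fm_x_ff]
  simp [ff]

lemma fm_ff_ee_same (i : Fin m) : sympForm m F (ff i) (ee i) = 1 := by
  rw [fm_x_ee]
  simp [ff]

lemma fm_ee_ff_same (i : Fin m) : sympForm m F (ee i) (ff i) = -1 := by
  rw [fm_x_ff]
  simp [ee]

lemma fm_ff_ee_ne {i j : Fin m} (h : i ≠ j) : sympForm m F (ff i) (ee j) = 0 := by
  rw [fm_x_ee]
  simp [ff, Pi.single_apply, h.symm]

lemma fm_ee_ff_ne {i j : Fin m} (h : i ≠ j) : sympForm m F (ee i) (ff j) = 0 := by
  rw [fm_x_ff]
  simp [ee, Pi.single_apply, h.symm]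

/-- A Levi root element as a Siegel element. -/
lemma levi_T_eq {i j : Fin m} (h : i ≠ j) (c : F) : leviS (TT h c) = xS (ee i) (ff j) (-c) := by
  apply sp_ext
  intro x
  rw [xS_act (fm_ee_ff_ne h), fm_x_ee, fm_x_ff, coe_levi_T, fromBlocks_mulVec]
  ext (r | r)
  · simp only [Sum.elim_inl, Pi.add_apply, zero_mulVec, add_zero, add_mulVec, one_mulVec, single_mulVec,
      Function.comp_apply, Pi.smul_apply, smul_eq_mul, ee, ff]
    by_cases hr : r = i
    · subst hr
      simp [Function.update_self]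
    · simp [hr, Function.update_of_ne]
  · simp only [Sum.elim_inr, Pi.add_apply, zero_mulVec, zero_add, add_mulVec, one_mulVec, single_mulVec,
      Function.comp_apply, Pi.smul_apply, smul_eq_mul, ee, ff]
    by_cases hr : r = j
    · subst hr
      simp [Function.update_self]
    · simp [hr, Function.update_of_ne]

/-- The long root elements. -/
lemma long_uu_eq (j : Fin m) (d : F) : longS j (uu d) = tS (ee j) d :=
  (Subtype.ext (transv_e j d)).symm

lemma long_ll_eq (j : Fin m) (d : F) : longS j (ll d) = tS (ff j) (-d) := by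
  apply sp_ext
  intro x
  rw [tS_act, fm_x_ff]
  change longM j (ll d) *ᵥ x = _
  ext (r | r)
  · rw [longM_mulVec_inl]
    simp [coe_ll, ff, Pi.single_apply]
  · rw [longM_mulVec_inr]
    by_cases h : r = j
    · subst h
      simp [coe_ll, ff]
    · simp [coe_ll, ff, h]

/-- The action of the Weyl element. -/
lemma long_wn_ee_same (j : Fin m) : (longS j (wn : M2 F)).1 *ᵥ ee j = ff j := longM_wn_inl j

lemma long_wn_ee_ne {j k : Fin m} (h : k ≠ j) : (longS j (wn : M2 F)).1 *ᵥ ee k = ee k := longM_wn_inl_ne h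

lemma long_wn_ff_ne {j k : Fin m} (h : k ≠ j) : (longS j (wn : M2 F)).1 *ᵥ ff k = ff k := longM_wn_inr_ne h

lemma long_wn_ff_same (j : Fin m) : (longS j (wn : M2 F)).1 *ᵥ ff j = (-1 : F) • ee j := by
  change longM j wn *ᵥ ff j = _
  ext (r | r)
  · rw [longM_mulVec_inl]
    by_cases h : r = j
    · subst h
      simp [coe_wn, ff, ee]
    · simp [coe_wn, ff, ee, h]
  · rw [longM_mulVec_inr]
    by_cases h : r = j
    · subst h
      simp [coe_wn, ff, ee]
    · simp [coe_wn, ff, ee, h, Pi.single_apply]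

/-- The action of the Levi subgroup. -/
lemma levi_ee {l : SpecialLinearGroup (Fin m) F} {j k : Fin m} {ε : F} (h : Mv l j k ε) :
    (leviS l).1 *ᵥ ee j = ε • ee k := by
  rw [coe_leviS, fromBlocks_mulVec]
  have e1 : (ee j : VV m F) ∘ Sum.inl = Pi.single j 1 := by
    ext r
    by_cases hr : r = j
    · subst hr
      simp [ee]
    · simp [ee, hr]
  have e2 : (ee j : VV m F) ∘ Sum.inr = 0 := by
    ext r
    simp [ee]
  rw [e1, e2, h.col]
  ext (r | r)
  · by_cases hr : r = k
    · subst hr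
      simp [ee]
    · simp [ee, hr]
  · simp [ee]

lemma levi_ff {l : SpecialLinearGroup (Fin m) F} {j k : Fin m} {ε : F} (h : Mv l j k ε) :
    (leviS l).1 *ᵥ ff j = ε • ff k := by
  rw [coe_leviS, fromBlocks_mulVec]
  have e1 : (ff j : VV m F) ∘ Sum.inr = Pi.single j 1 := by
    ext r
    by_cases hr : r = j
    · subst hr
      simp [ff]
    · simp [ff, hr]
  have e2 : (ff j : VV m F) ∘ Sum.inl = 0 := by
    ext r
    simp [ff]
  have d1 : ((l⁻¹).1)ᵀ *ᵥ Pi.single j 1 = Pi.single k ε := by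
    rw [mulVec_transpose]
    exact h.inv.row
  rw [e1, e2, d1]
  ext (r | r)
  · simp [ff]
  · by_cases hr : r = k
    · subst hr
      simp [ff]
    · simp [ff, hr]

/-- The action of a torus element of a long root `SL₂`. -/
lemma long_dd_ee_same (j : Fin m) (u : Fˣ) : (longS j (dd u)).1 *ᵥ ee j = (u : F) • ee j := by
  change longM j (dd u) *ᵥ ee j = _
  ext (r | r)
  · rw [longM_mulVec_inl]
    by_cases h : r = j
    · subst h
      simp [coe_dd, ee]
    · simp [coe_dd, ee, h]
  · rw [longM_mulVec_inr]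
    by_cases h : r = j
    · subst h
      simp [coe_dd, ee]
    · simp [coe_dd, ee, h]

lemma long_dd_ff_same (j : Fin m) (u : Fˣ) : (longS j (dd u)).1 *ᵥ ff j = ((u⁻¹ : Fˣ) : F) • ff j := by
  change longM j (dd u) *ᵥ ff j = _
  ext (r | r)
  · rw [longM_mulVec_inl]
    by_cases h : r = j
    · subst h
      simp [coe_dd, ff]
    · simp [coe_dd, ff, h]
  · rw [longM_mulVec_inr]
    by_cases h : r = j
    · subst h
      simp [coe_dd, ff]
    · simp [coe_dd, ff, h]

lemma long_dd_ee_ne {j k : Fin m} (hk : k ≠ j) (u : Fˣ) : (longS j (dd u)).1 *ᵥ ee k = ee k := by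
  change longM j (dd u) *ᵥ ee k = _
  ext (r | r)
  · rw [longM_mulVec_inl]
    by_cases h : r = j
    · subst h
      simp [coe_dd, ee, hk]
    · simp [coe_dd, ee, h, hk]
  · rw [longM_mulVec_inr]
    by_cases h : r = j
    · subst h
      simp [coe_dd, ee, hk]
    · simp [coe_dd, ee, h, hk]

lemma long_dd_ff_ne {j k : Fin m} (hk : k ≠ j) (u : Fˣ) : (longS j (dd u)).1 *ᵥ ff k = ff k := by
  change longM j (dd u) *ᵥ ff k = _
  ext (r | r)
  · rw [longM_mulVec_inl]
    by_cases h : r = j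
    · subst h
      simp [coe_dd, ff, hk]
    · simp [coe_dd, ff, h, hk]
  · rw [longM_mulVec_inr]
    by_cases h : r = j
    · subst h
      simp [coe_dd, ff, hk]
    · simp [coe_dd, ff, h, hk]

end Cfsg.Agent.Lib.PresSp.Two
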