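import Cfsg.Agent.Lib.PresSp.Two1

/-!
# Two generators for the symplectic group: the steps and the final generation
-/

set_option autoImplicit false

namespace Cfsg.Agent.Lib.PresSp.Two

open Matrix Cfsg Cfsg.Agent.Lib.Classical.SympForm Cfsg.Agent.Lib.PresSp.Vec Cfsg.Agent.Lib.PresSp.Tgt
  Cfsg.Agent.Lib.PresSp.Surj Cfsg.Agent.Lib.PresSp.M2 Cfsg.Agent.Lib.PresSp.Mono
  Cfsg.Agent.Lib.PresSLn.TwoGen Cfsg.Agent.Lib.PresSp.Abs

variable {m : ℕ} {F : Type*} [Field F]

section steps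

variable {G : Subgroup (Spg m F)}

/-- Moving a family of Siegel elements by an element of the group. -/
lemma step_x {g : Spg m F} (hg : g ∈ G) {u v u' v' : VV m F} {ε ε' : F} (hε : ε ≠ 0) (hε' : ε' ≠ 0)
    (hu : g.1 *ᵥ u = ε • u') (hv : g.1 *ᵥ v = ε' • v') (ho : sympForm m F u' v' = 0)
    (H : ∀ c, xS u v c ∈ G) (c : F) : xS u' v' c ∈ G := by
  have h1 := mul_mem (mul_mem hg (H ((ε' * ε)⁻¹ * c))) (inv_mem hg)
  have h2 : sympForm m F u' (ε' • v') = 0 := by rw [fm_smul_right, ho, mul_zero]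
  rw [xS_conj, hu, hv, xS_smul_left h2, xS_smul_right ho] at h1
  have e : ε' * (ε * ((ε' * ε)⁻¹ * c)) = c := by
    field_simp
  rwa [e] at h1

/-- The converse. -/
lemma step_x' {g : Spg m F} (hg : g ∈ G) {u v u' v' : VV m F} {ε ε' : F}
    (hu : g.1 *ᵥ u = ε • u') (hv : g.1 *ᵥ v = ε' • v') (ho : sympForm m F u' v' = 0)
    (H : ∀ c, xS u' v' c ∈ G) (c : F) : xS u v c ∈ G := by
  have h1 := mul_mem (mul_mem (inv_mem hg) (H (ε' * (ε * c)))) hg
  have h2 : sympForm m F u' (ε' • v') = 0 := by rw [fm_smul_right, ho, mul_zero]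
  have e : xS u' v' (ε' * (ε * c)) = g * xS u v c * g⁻¹ := by
    rw [xS_conj, hu, hv, xS_smul_left h2, xS_smul_right ho]
  rw [e] at h1
  have e2 : g⁻¹ * (g * xS u v c * g⁻¹) * g = xS u v c := by group
  rwa [e2] at h1

lemma step_t {g : Spg m F} (hg : g ∈ G) {v v' : VV m F} {ε : F} (hε : ε * ε = 1)
    (hv : g.1 *ᵥ v = ε • v') (H : ∀ c, tS v c ∈ G) (c : F) : tS v' c ∈ G := by
  have h1 := mul_mem (mul_mem hg (H c)) (inv_mem hg)
  rw [tS_conj, hv, tS_smul] at h1
  have e : ε ^ 2 * c = c := by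
    rw [pow_two, hε, one_mul]
  rwa [e] at h1

lemma step_t' {g : Spg m F} (hg : g ∈ G) {v v' : VV m F} {ε : F} (hε : ε * ε = 1)
    (hv : g.1 *ᵥ v = ε • v') (H : ∀ c, tS v' c ∈ G) (c : F) : tS v c ∈ G := by
  have h1 := mul_mem (mul_mem (inv_mem hg) (H c)) hg
  have e : tS v' c = g * tS v c * g⁻¹ := by
    rw [tS_conj, hv, tS_smul]
    congr 1
    rw [pow_two, hε, one_mul]
  rw [e] at h1
  have e2 : g⁻¹ * (g * tS v c * g⁻¹) * g = tS v c := by group
  rwa [e2] at h1

end steps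

section ww

variable (m F) in
/-- The Coxeter element. -/
noncomputable def ww : Spg (m + 1) F :=
  leviS (mono (finRotate (m + 1)) 0 : SpecialLinearGroup (Fin (m + 1)) F) * longS (Fin.last m) (wn : M2 F)

/-- The points of the index set. -/
def ix {m : ℕ} (k : ℕ) (hk : k ≤ m) : Fin (m + 1) := ⟨k, by omega⟩

lemma ix_ne {m k l : ℕ} (hk : k ≤ m) (hl : l ≤ m) (h : k ≠ l) : ix k hk ≠ ix l hl := by
  intro e
  exact h (congrArg Fin.val e)

lemma ix_last {m : ℕ} : ix m le_rfl = Fin.last m := rfl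

lemma rot_ix {m k : ℕ} (hk : k + 1 ≤ m) : finRotate (m + 1) (ix k (by omega)) = ix (k + 1) hk :=
  finRotate_of_lt (by omega)

lemma rot_last {m : ℕ} : finRotate (m + 1) (ix m le_rfl) = ix 0 (Nat.zero_le m) :=
  finRotate_last' (n := m)

/-- The sign. -/
noncomputable def sn (m : ℕ) (F : Type*) [Field F] (i : Fin (m + 1)) : F := sgnd (finRotate (m + 1)) 0 i

lemma sn_sq (i : Fin (m + 1)) : sn m F i * sn m F i = 1 :=
  (mv_mono (F := F) (finRotate (m + 1)) 0 i).sq

lemma sn_ne (i : Fin (m + 1)) : sn m F i ≠ 0 := by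
  intro h
  have := sn_sq (m := m) (F := F) i
  rw [h, mul_zero] at this
  exact zero_ne_one this

lemma ww_ee {k : ℕ} (hk : k + 1 ≤ m) :
    (ww m F).1 *ᵥ ee (ix k (by omega)) = sn m F (ix k (by omega)) • ee (ix (k + 1) hk) := by
  rw [ww, mul_act, long_wn_ee_ne (by simp only [← ix_last]; exact ix_ne _ _ (by omega))]
  have h := levi_ee (mv_mono (F := F) (finRotate (m + 1)) 0 (ix k (by omega)))
  rw [rot_ix hk] at h
  exact h

lemma ww_ee_last : (ww m F).1 *ᵥ ee (ix m le_rfl) = sn m F (ix m le_rfl) • ff (ix 0 (Nat.zero_le m)) := by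
  rw [ww, mul_act, ix_last, long_wn_ee_same]
  have h := levi_ff (mv_mono (F := F) (finRotate (m + 1)) 0 (ix m le_rfl))
  rw [rot_last] at h
  exact h

lemma ww_ff {k : ℕ} (hk : k + 1 ≤ m) :
    (ww m F).1 *ᵥ ff (ix k (by omega)) = sn m F (ix k (by omega)) • ff (ix (k + 1) hk) := by
  rw [ww, mul_act, long_wn_ff_ne (by simp only [← ix_last]; exact ix_ne _ _ (by omega))]
  have h := levi_ff (mv_mono (F := F) (finRotate (m + 1)) 0 (ix k (by omega)))
  rw [rot_ix hk] at h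
  exact h

lemma ww_ff_last : (ww m F).1 *ᵥ ff (ix m le_rfl) = (-sn m F (ix m le_rfl)) • ee (ix 0 (Nat.zero_le m)) := by
  rw [ww, mul_act, ix_last, long_wn_ff_same, mulVec_smul]
  have h := levi_ee (mv_mono (F := F) (finRotate (m + 1)) 0 (ix m le_rfl))
  rw [rot_last] at h
  change (-1 : F) • ((leviS _).1 *ᵥ ee (ix m le_rfl)) = _
  rw [h, smul_smul]
  simp
  rfl

lemma neg_sn_sq (i : Fin (m + 1)) : (-sn m F i) * (-sn m F i) = 1 := by
  rw [neg_mul_neg, sn_sq]

lemma neg_sn_ne (i : Fin (m + 1)) : -sn m F i ≠ 0 := neg_ne_zero.2 (sn_ne i)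

end ww

section final

variable {G : Subgroup (Spg (m + 1) F)}

lemma pp_of_xS {i j : Fin (m + 1)} (h : ∀ c, xS (ee i) (ff j) c ∈ G) : PP (G.comap leviS) i j := by
  intro hij a
  show leviS _ ∈ G
  rw [levi_T_eq]
  exact h _

lemma xS_of_pp {i j : Fin (m + 1)} (hij : i ≠ j) (h : PP (G.comap leviS) i j) (c : F) :
    xS (ee i) (ff j) c ∈ G := by
  have := h hij (-c)
  have h2 : leviS (TT hij (-c)) ∈ G := this
  rwa [levi_T_eq, neg_neg] at h2

/-- If the Coxeter element and the root groups at the start are in a subgroup, it is everything. -/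
theorem final_gen (hm : 1 ≤ m) (hw : ww m F ∈ G)
    (hT : ∀ d, tS (ee (ix 0 (Nat.zero_le m))) d ∈ G)
    (hA : ∀ c, xS (ee (ix 0 (Nat.zero_le m))) (ff (ix 1 hm)) c ∈ G) : G = ⊤ := by
  -- the long root elements
  have hTe : ∀ (k : ℕ) (hk : k ≤ m) (d : F), tS (ee (ix k hk)) d ∈ G := by
    intro k
    induction k with
    | zero => exact fun _ d => hT d
    | succ k ih =>
      intro hk
      exact step_t hw (sn_sq _) (ww_ee hk) (ih (by omega))
  have hTf0 : ∀ d : F, tS (ff (ix 0 (Nat.zero_le m))) d ∈ G :=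
    step_t hw (sn_sq _) ww_ee_last (hTe m le_rfl)
  have hTf : ∀ (k : ℕ) (hk : k ≤ m) (d : F), tS (ff (ix k hk)) d ∈ G := by
    intro k
    induction k with
    | zero => exact fun _ d => hTf0 d
    | succ k ih =>
      intro hk
      exact step_t hw (sn_sq _) (ww_ff hk) (ih (by omega))
  have hall : ∀ (j : Fin (m + 1)) (g : M2 F), longS j g ∈ G := by
    intro j g
    have hj : j = ix j.1 (by have := j.2; omega) := rfl
    have : (G.comap (longS j)) = ⊤ := by
      rw [eq_top_iff, ← closure_uu_ll, Subgroup.closure_le]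
      rintro _ (⟨d, rfl⟩ | ⟨d, rfl⟩)
      · show longS j (uu d) ∈ G
        rw [long_uu_eq, hj]
        exact hTe _ _ _
      · show longS j (ll d) ∈ G
        rw [long_ll_eq, hj]
        exact hTf _ _ _
    have h2 : g ∈ G.comap (longS j) := by
      rw [this]
      trivial
    exact h2
  -- the Levi subgroup
  have hU : ∀ (k : ℕ) (hk : k + 1 ≤ m) (c : F), xS (ee (ix k (by omega))) (ff (ix (k + 1) hk)) c ∈ G := by
    intro k
    induction k with
    | zero => exact fun _ c => hA c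
    | succ k ih =>
      intro hk
      refine step_x hw (sn_ne _) (sn_ne _) (ww_ee (by omega)) (ww_ff hk) (fm_ee_ff_ne (ix_ne _ _ (by omega)))
        (ih (by omega))
  have hm0 : ix m le_rfl ≠ ix 0 (Nat.zero_le m) := ix_ne _ _ (by omega)
  have hZ : ∀ c : F, xS (ee (ix m le_rfl)) (ee (ix 0 (Nat.zero_le m))) c ∈ G := by
    obtain ⟨l, rfl⟩ : ∃ l, m = l + 1 := ⟨m - 1, by omega⟩
    exact step_x hw (sn_ne _) (neg_sn_ne _) (ww_ee le_rfl) ww_ff_last (fm_ee_ee _ _) (hU l le_rfl)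
  have hZ2 : ∀ c : F, xS (ee (ix m le_rfl)) (ff (ix 0 (Nat.zero_le m))) c ∈ G := by
    refine step_x (hall (ix 0 (Nat.zero_le m)) wn) (one_ne_zero) (one_ne_zero) (u := ee (ix m le_rfl))
      (v := ee (ix 0 (Nat.zero_le m))) ?_ ?_ (fm_ee_ff_ne hm0) hZ
    · rw [one_smul]
      exact long_wn_ee_ne hm0
    · rw [one_smul]
      exact long_wn_ee_same _
  have hL : G.comap leviS = ⊤ := by
    refine top_of_chain (by omega) ?_ ?_
    · intro k hk
      exact pp_of_xS (hU k (by omega))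
    · exact pp_of_xS hZ2
  rw [eq_top_iff, ← gen_target (F := F) (ix_ne (Nat.zero_le m) le_rfl (by omega)), Subgroup.closure_le]
  rintro _ (⟨l, rfl⟩ | ⟨g, rfl⟩)
  · have h2 : l ∈ G.comap leviS := by
      rw [hL]
      trivial
    exact h2
  · exact hall _ g

end final

end Cfsg.Agent.Lib.PresSp.Two
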