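import Cfsg.Agent.Lib.PresSp.Two2

/-!
# Two generators for the symplectic group: the first generator and the case of rank at least three
-/

set_option autoImplicit false

namespace Cfsg.Agent.Lib.PresSp.Two

open Matrix Cfsg Cfsg.Agent.Lib.Classical.SympForm Cfsg.Agent.Lib.PresSp.Vec Cfsg.Agent.Lib.PresSp.Tgt
  Cfsg.Agent.Lib.PresSp.Surj Cfsg.Agent.Lib.PresSp.M2 Cfsg.Agent.Lib.PresSp.Mono
  Cfsg.Agent.Lib.PresSLn.TwoGen Cfsg.Agent.Lib.PresSp.Abs

variable {m : ℕ} {F : Type*} [Field F]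

section gens

/-- The first generator. -/
noncomputable def aa (m : ℕ) (F : Type*) [Field F] : Spg (m + 1) F :=
  ww m F * tS (ee (ix 0 (Nat.zero_le m))) 1

/-- The torus element. -/
noncomputable def tau (hm : 1 ≤ m) (ζ : Fˣ) : Spg (m + 1) F :=
  longS (ix 0 (Nat.zero_le m)) (dd ζ) * longS (ix 1 hm) (dd ζ)

/-- The unipotent element. -/
noncomputable def uu0 (hm : 1 ≤ m) : Spg (m + 1) F :=
  xS (ee (ix 0 (Nat.zero_le m))) (ff (ix 1 hm)) 1

lemma aa_ee (i : Fin (m + 1)) : (aa m F).1 *ᵥ ee i = (ww m F).1 *ᵥ ee i := by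
  rw [aa, mul_act, tS_act, fm_ee_ee]
  simp

lemma aa_ff {j : Fin (m + 1)} (h : j ≠ ix 0 (Nat.zero_le m)) : (aa m F).1 *ᵥ ff j = (ww m F).1 *ᵥ ff j := by
  rw [aa, mul_act, tS_act, fm_ff_ee_ne h]
  simp

lemma aa_ff0 : (aa m F).1 *ᵥ (ff (ix 0 (Nat.zero_le m)) + (-1 : F) • ee (ix 0 (Nat.zero_le m))) =
    (ww m F).1 *ᵥ ff (ix 0 (Nat.zero_le m)) := by
  rw [aa, mul_act, tS_act, fm_add_left, fm_smul_left, fm_ee_ee, fm_ff_ee_same]
  congr 1
  module

lemma tau_ee0 (hm : 1 ≤ m) (ζ : Fˣ) : (tau hm ζ).1 *ᵥ ee (ix 0 (Nat.zero_le m)) = (ζ : F) • ee (ix 0 (Nat.zero_le m)) := by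
  rw [tau, mul_act, long_dd_ee_ne (ix_ne _ _ (by omega)), long_dd_ee_same]

lemma tau_ee1 (hm : 1 ≤ m) (ζ : Fˣ) : (tau hm ζ).1 *ᵥ ee (ix 1 hm) = (ζ : F) • ee (ix 1 hm) := by
  rw [tau, mul_act, long_dd_ee_same, mulVec_smul, long_dd_ee_ne (ix_ne _ _ (by omega))]

lemma tau_ff0 (hm : 1 ≤ m) (ζ : Fˣ) : (tau hm ζ).1 *ᵥ ff (ix 0 (Nat.zero_le m)) =
    ((ζ⁻¹ : Fˣ) : F) • ff (ix 0 (Nat.zero_le m)) := by
  rw [tau, mul_act, long_dd_ff_ne (ix_ne _ _ (by omega)), long_dd_ff_same]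

lemma tau_ff1 (hm : 1 ≤ m) (ζ : Fˣ) : (tau hm ζ).1 *ᵥ ff (ix 1 hm) = ((ζ⁻¹ : Fˣ) : F) • ff (ix 1 hm) := by
  rw [tau, mul_act, long_dd_ff_same, mulVec_smul, long_dd_ff_ne (ix_ne _ _ (by omega))]

lemma xS_pow {m : ℕ} {u v : VV m F} (h : sympForm m F u v = 0) (c : F) (k : ℕ) :
    xS u v c ^ k = xS u v ((k : F) * c) := by
  induction k with
  | zero => simp [xS_zero h]
  | succ k ih =>
    rw [pow_succ, ih, ← xS_add h]
    congr 1
    push_cast
    ring

lemma comm_tau_uu0 (hm : 1 ≤ m) (ζ : Fˣ) : Commute (tau hm ζ : Spg (m + 1) F) (uu0 hm) := by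
  change _ = _
  rw [← mul_inv_eq_iff_eq_mul, uu0, xS_conj, tau_ee0, tau_ff1]
  have h1 : sympForm (m + 1) F (ee (ix 0 (Nat.zero_le m))) (((ζ⁻¹ : Fˣ) : F) • ff (ix 1 hm)) = 0 := by
    rw [fm_smul_right, fm_ee_ff_ne (ix_ne _ _ (by omega)), mul_zero]
  rw [xS_smul_left h1, xS_smul_right (fm_ee_ff_ne (ix_ne _ _ (by omega)))]
  congr 1
  simp

/-- Separating the semisimple and the unipotent part. -/
lemma split [Finite F] (hm : 1 ≤ m) (ζ : Fˣ) {G : Subgroup (Spg (m + 1) F)} (hb : tau hm ζ * uu0 hm ∈ G) :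
    uu0 hm ∈ G ∧ tau hm ζ ∈ G := by
  classical
  haveI := Fintype.ofFinite F
  have hc := comm_tau_uu0 (F := F) hm ζ
  have hq : ζ ^ (Fintype.card F - 1) = 1 := by
    apply Units.ext
    simpa using FiniteField.pow_card_sub_one_eq_one (ζ : F) ζ.ne_zero
  have h1 : tau hm ζ ^ (Fintype.card F - 1) = (1 : Spg (m + 1) F) := by
    rw [tau, (longS_comm (ix_ne (Nat.zero_le m) hm (by omega)) _ _).mul_pow, ← map_pow, ← map_pow, ← dd_pow, hq,
      dd_one, map_one, map_one, one_mul]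
  have hcard : ((Fintype.card F - 1 : ℕ) : F) = -1 := by
    rw [Nat.cast_sub Fintype.card_pos, Nat.cast_one, Nat.cast_card_eq_zero]
    ring
  have ho : sympForm (m + 1) F (ee (ix 0 (Nat.zero_le m))) (ff (ix 1 hm)) = 0 :=
    fm_ee_ff_ne (ix_ne _ _ (by omega))
  have h2 : uu0 hm ^ (Fintype.card F - 1) = (uu0 hm : Spg (m + 1) F)⁻¹ := by
    rw [uu0, xS_pow ho, hcard, ← xS_neg ho]
    congr 1
    ring
  have h3 := pow_mem hb (Fintype.card F - 1)
  rw [hc.mul_pow, h1, one_mul, h2] at h3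
  have hu : uu0 hm ∈ G := by simpa using inv_mem h3
  refine ⟨hu, ?_⟩
  simpa using mul_mem hb (inv_mem hu)

end gens

section big

variable {G : Subgroup (Spg (m + 1) F)}

/-- The case of rank at least three. -/
theorem gen_big [Finite F] (hm : 2 ≤ m) {ζ : Fˣ} (hζ : ∀ u : Fˣ, ∃ k : ℕ, ζ ^ k = u)
    (ha : aa m F ∈ G) (hb : tau (by omega) ζ * uu0 (by omega) ∈ G) : G = ⊤ := by
  have hm1 : 1 ≤ m := by omega
  obtain ⟨hU, hτ⟩ := split hm1 ζ hb
  set i0 := ix 0 (Nat.zero_le m) with hi0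
  set i1 := ix 1 hm1 with hi1
  set i2 := ix 2 hm with hi2
  set im := ix m le_rfl with him
  have h01 : i0 ≠ i1 := ix_ne _ _ (by omega)
  have h02 : i0 ≠ i2 := ix_ne _ _ (by omega)
  have h12 : i1 ≠ i2 := ix_ne _ _ (by omega)
  have hm0 : im ≠ i0 := ix_ne _ _ (by omega)
  have hm1' : im ≠ i1 := ix_ne _ _ (by omega)
  -- the first root element
  have ho12 : sympForm (m + 1) F (ee i1) (ff i2) = 0 := fm_ee_ff_ne h12
  have ha0 : (aa m F).1 *ᵥ ee i0 = sn m F i0 • ee i1 := by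
    rw [aa_ee]
    exact ww_ee (k := 0) hm1
  have ha1 : (aa m F).1 *ᵥ ff i1 = sn m F i1 • ff i2 := by
    rw [aa_ff (Ne.symm h01)]
    exact ww_ff (k := 1) hm
  have hS1 : ∀ c, xS (ee i1) (ff i2) c ∈ G := by
    have h1 := mul_mem (mul_mem ha hU) (inv_mem ha)
    rw [uu0, xS_conj, ha0, ha1] at h1
    have h2 : sympForm (m + 1) F (ee i1) (sn m F i1 • ff i2) = 0 := by
      rw [fm_smul_right, ho12, mul_zero]
    rw [xS_smul_left h2, xS_smul_right ho12] at h1
    set c₀ := sn m F i1 * (sn m F i0 * 1) with hc₀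
    have hc₀0 : c₀ ≠ 0 := mul_ne_zero (sn_ne _) (mul_ne_zero (sn_ne _) one_ne_zero)
    have hstep : ∀ c, xS (ee i1) (ff i2) c ∈ G → xS (ee i1) (ff i2) ((ζ : F) * c) ∈ G := by
      intro c hc
      have h3 := mul_mem (mul_mem hτ hc) (inv_mem hτ)
      have e1 : (tau hm1 ζ).1 *ᵥ ff i2 = ff i2 := by
        rw [tau, mul_act, long_dd_ff_ne (Ne.symm h12), long_dd_ff_ne (Ne.symm h02)]
      rw [xS_conj, tau_ee1, e1, xS_smul_left ho12] at h3
      exact h3
    have hpow : ∀ k : ℕ, xS (ee i1) (ff i2) ((ζ : F) ^ k * c₀) ∈ G := by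
      intro k
      induction k with
      | zero => simpa using h1
      | succ k ih =>
        have := hstep _ ih
        rwa [← mul_assoc, ← pow_succ'] at this
    intro c
    by_cases hc : c = 0
    · subst hc
      rw [xS_zero ho12]
      exact one_mem _
    · obtain ⟨k, hk⟩ := hζ (Units.mk0 (c / c₀) (div_ne_zero hc hc₀0))
      have hk2 : (ζ : F) ^ k = c / c₀ := by
        have := congrArg Units.val hk
        simpa using this
      have := hpow k
      rwa [hk2, div_mul_cancel₀ _ hc₀0] at this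
  -- the chain
  have hS2 : ∀ c, xS (ee i0) (ff i1) c ∈ G := step_x' ha ha0 ha1 ho12 hS1
  have hS3 : ∀ (k : ℕ) (hk : k + 1 ≤ m) (c : F), xS (ee (ix k (by omega))) (ff (ix (k + 1) hk)) c ∈ G := by
    intro k
    induction k with
    | zero => exact fun _ c => hS2 c
    | succ k ih =>
      intro hk
      have hu : (aa m F).1 *ᵥ ee (ix k (by omega)) =
          sn m F (ix k (by omega)) • ee (ix (k + 1) (by omega)) := by
        rw [aa_ee]
        exact ww_ee (by omega)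
      have hv : (aa m F).1 *ᵥ ff (ix (k + 1) (by omega)) =
          sn m F (ix (k + 1) (by omega)) • ff (ix (k + 1 + 1) hk) := by
        rw [aa_ff (ix_ne _ _ (by omega))]
        exact ww_ff (by omega)
      exact step_x ha (sn_ne _) (sn_ne _) hu hv (fm_ee_ff_ne (ix_ne _ _ (by omega))) (ih (by omega))
  have hamm : (aa m F).1 *ᵥ ff im = (-sn m F im) • ee i0 := by
    rw [aa_ff hm0]
    exact ww_ff_last
  have hS4 : ∀ c, xS (ee im) (ee i0) c ∈ G := by
    obtain ⟨l, rfl⟩ : ∃ l, m = l + 1 := ⟨m - 1, by omega⟩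
    have hu : (aa (l + 1) F).1 *ᵥ ee (ix l (by omega)) =
        sn (l + 1) F (ix l (by omega)) • ee (ix (l + 1) le_rfl) := by
      rw [aa_ee]
      exact ww_ee le_rfl
    exact step_x ha (sn_ne _) (neg_sn_ne _) hu hamm (fm_ee_ee _ _) (hS3 l le_rfl)
  have hS5 : ∀ c, xS (ff i0) (ee i1) c ∈ G := by
    have hu : (aa m F).1 *ᵥ ee im = sn m F im • ff i0 := by
      rw [aa_ee]
      exact ww_ee_last
    exact step_x ha (sn_ne _) (sn_ne _) hu ha0 (fm_ff_ee_ne h01) hS4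
  have hS6 : ∀ c, xS (ff im) (ff i0 + (-1 : F) • ee i0) c ∈ G := by
    have hv : (aa m F).1 *ᵥ (ff i0 + (-1 : F) • ee i0) = sn m F i0 • ff i1 := by
      rw [aa_ff0]
      exact ww_ff (k := 0) hm1
    exact step_x' ha hamm hv (fm_ee_ff_ne h01) hS2
  -- the upper triangle
  have hchain : ∀ (d i : ℕ) (hi : i + d + 1 ≤ m),
      PP (G.comap leviS) (ix i (by omega)) (ix (i + d + 1) hi) := by
    intro d
    induction d with
    | zero => exact fun i hi => pp_of_xS (hS3 i hi)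
    | succ d ih =>
      intro i hi
      refine PP_comm (j := ix (i + d + 1) (by omega)) (ix_ne _ _ (by omega)) (ix_ne _ _ (by omega))
        (ix_ne _ _ (by omega)) (ih i (by omega)) (pp_of_xS (hS3 _ hi))
  have hS7 : ∀ c, xS (ee i0) (ff im) c ∈ G := by
    have := hchain (m - 1) 0 (by omega)
    have e : 0 + (m - 1) + 1 = m := by omega
    rw [show ix (0 + (m - 1) + 1) (by omega) = im from Fin.ext e] at this
    exact xS_of_pp (Ne.symm hm0) this
  have hS7' : ∀ c, xS (ee i1) (ff im) c ∈ G := by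
    have := hchain (m - 2) 1 (by omega)
    have e : 1 + (m - 2) + 1 = m := by omega
    rw [show ix (1 + (m - 2) + 1) (by omega) = im from Fin.ext e] at this
    exact xS_of_pp (Ne.symm hm1') this
  -- the element moving the lower root
  have hS8 : ∀ x, xS (ee im) (ee i1) x ∈ G := by
    intro x
    have ho : sympForm (m + 1) F (ff i0) (ee i1) = 0 := fm_ff_ee_ne h01
    have h1 := mul_mem (mul_mem (hS5 (-x)) (hS4 1)) (inv_mem (hS5 (-x)))
    have e1 : (xS (ff i0) (ee i1) (-x)).1 *ᵥ ee im = ee im := by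
      rw [xS_act ho, fm_ee_ff_ne hm0, fm_ee_ee]
      simp
    have e2 : (xS (ff i0) (ee i1) (-x)).1 *ᵥ ee i0 = ee i0 + x • ee i1 := by
      rw [xS_act ho, fm_ee_ff_same, fm_ee_ee]
      module
    rw [xS_conj, e1, e2, xS_add_right (fm_ee_ee _ _) (fm_smul_right x (ee im) (ee i1) ▸ by
      rw [fm_ee_ee, mul_zero]), fm_smul_left, fm_ee_ee, xS_smul_right (fm_ee_ee _ _)] at h1
    have e3 : tS (ee im) (-((1 : F) ^ 2 * (x * 0))) = 1 := by
      rw [mul_zero, mul_zero, neg_zero, tS_zero]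
    rw [e3, mul_one] at h1
    have h2 := mul_mem (inv_mem (hS4 1)) h1
    rw [inv_mul_cancel_left, mul_one] at h2
    exact h2
  -- the lower element
  have hff : sympForm (m + 1) F (ff im) (ff i0) = 0 := fm_ff_ff _ _
  have hfe : sympForm (m + 1) F (ff im) ((-1 : F) • ee i0) = 0 := by
    rw [fm_smul_right, fm_ff_ee_ne hm0, mul_zero]
  have hval : sympForm (m + 1) F ((-1 : F) • ee i0) (ff i0) = 1 := by
    rw [fm_smul_left, fm_ee_ff_same]
    ring
  have hS9 : xS (ff im) (ff i0) (1 : F) * tS (ff im) (-1 : F) ∈ G := by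
    have h1 := hS6 1
    rw [xS_add_right hff hfe, hval, xS_smul_right (fm_ff_ee_ne hm0), xS_symm (fm_ff_ee_ne hm0)] at h1
    have e1 : -((1 : F) ^ 2 * 1) = -1 := by ring
    rw [e1] at h1
    have hB := hS7 ((-1 : F) * 1)
    have hc : Commute (xS (ee i0) (ff im) ((-1 : F) * 1)) (tS (ff im) (-1 : F)) :=
      comm_xt (fm_ee_ff_ne (Ne.symm hm0)) (fm_ee_ff_ne (Ne.symm hm0)) (fm_self _) _ _
    have e2 : xS (ff im) (ff i0) (1 : F) * tS (ff im) (-1 : F) =
        xS (ff im) (ff i0) (1 : F) * xS (ee i0) (ff im) ((-1 : F) * 1) * tS (ff im) (-1 : F) *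
          (xS (ee i0) (ff im) ((-1 : F) * 1))⁻¹ := by
      rw [mul_assoc (xS (ff im) (ff i0) (1 : F)), hc.eq]
      group
    rw [e2]
    exact mul_mem h1 (inv_mem hB)
  -- the long root element
  have hS10 : ∀ x : F, tS (ee i1) ((x : F) ^ 2 * (-1 : F)) ∈ G := by
    intro x
    have ho : sympForm (m + 1) F (ee im) (ee i1) = 0 := fm_ee_ee _ _
    have e1 : (xS (ee im) (ee i1) x).1 *ᵥ ff im = ff im + x • ee i1 := by
      rw [xS_act ho, fm_ff_ee_same, fm_ff_ee_ne hm1']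
      module
    have e2 : (xS (ee im) (ee i1) x).1 *ᵥ ff i0 = ff i0 := by
      rw [xS_act ho, fm_ff_ee_ne (Ne.symm hm0), fm_ff_ee_ne h01]
      simp
    have hP := mul_mem (mul_mem (hS8 x) hS9) (inv_mem (hS8 x))
    have e3 : xS (ee im) (ee i1) x * (xS (ff im) (ff i0) (1 : F) * tS (ff im) (-1 : F)) * (xS (ee im) (ee i1) x)⁻¹ =
        (xS (ee im) (ee i1) x * xS (ff im) (ff i0) (1 : F) * (xS (ee im) (ee i1) x)⁻¹) *
          (xS (ee im) (ee i1) x * tS (ff im) (-1 : F) * (xS (ee im) (ee i1) x)⁻¹) := by group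
    have ho1 : sympForm (m + 1) F (ff i0) (ff im) = 0 := fm_ff_ff _ _
    have ho2 : sympForm (m + 1) F (ff i0) (x • ee i1) = 0 := by
      rw [fm_smul_right, fm_ff_ee_ne h01, mul_zero]
    have ho3 : sympForm (m + 1) F (ff im + x • ee i1) (ff i0) = 0 := by
      rw [fm_add_left, fm_smul_left, fm_ff_ff, fm_ee_ff_ne (Ne.symm h01), mul_zero, add_zero]
    have ho4 : sympForm (m + 1) F (ff im) (x • ee i1) = 0 := by
      rw [fm_smul_right, fm_ff_ee_ne hm1', mul_zero]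
    have hv : sympForm (m + 1) F (x • ee i1) (ff im) = 0 := by
      rw [fm_smul_left, fm_ee_ff_ne (Ne.symm hm1'), mul_zero]
    rw [e3, xS_conj, tS_conj, e1, e2, xS_symm ho3, xS_add_right ho1 ho2, hv, xS_smul_right (fm_ff_ee_ne h01),
      tS_add_vec ho4, tS_smul, xS_smul_right (fm_ff_ee_ne hm1')] at hP
    have e4 : tS (ff i0) (-((1 : F) ^ 2 * 0)) = 1 := by
      rw [mul_zero, neg_zero, tS_zero]
    rw [e4, mul_one] at hP
    rw [xS_symm hff] at hS9
    set A := xS (ff i0) (ff im) (1 : F) with hA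
    set B := xS (ff i0) (ee i1) (x * (1 : F)) with hB
    set C := tS (ff im) (-1 : F) with hC
    set T := tS (ee i1) (x ^ 2 * (-1 : F)) with hT
    set E := xS (ff im) (ee i1) (x * (-1 : F)) with hE
    have hBm : B ∈ G := hS5 _
    have hEm : E ∈ G := by
      rw [hE, xS_symm (fm_ff_ee_ne hm1')]
      exact hS7' _
    have hBC : Commute B C :=
      comm_xt (fm_ff_ee_ne h01) (fm_ff_ff _ _) (fm_ee_ff_ne (Ne.symm hm1')) _ _
    have e5 : T = B⁻¹ * ((A * C)⁻¹ * (A * B * (C * T * E))) * E⁻¹ := by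
      have : (A * C)⁻¹ * (A * B * (C * T * E)) = C⁻¹ * (B * C) * T * E := by group
      rw [this, hBC.eq]
      group
    rw [e5]
    exact mul_mem (mul_mem (inv_mem hBm) (mul_mem (inv_mem hS9) hP)) (inv_mem hEm)
  have hS10' : ∀ d : F, tS (ee i1) d ∈ G := by
    refine sq_ind ?_ ?_ ?_
    · rw [tS_zero]
      exact one_mem _
    · intro x y hx hy
      rw [tS_add]
      exact mul_mem hx hy
    · intro v
      have := inv_mem (hS10 (v : F))
      rwa [← tS_neg, show -((v : F) ^ 2 * (-1 : F)) = (v : F) ^ 2 by ring] at this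
  have hS11 : ∀ d : F, tS (ee i0) d ∈ G := step_t' ha (sn_sq _) ha0 hS10'
  have hW : ww m F ∈ G := by
    have := mul_mem ha (inv_mem (hS11 1))
    rwa [aa, mul_inv_cancel_right] at this
  exact final_gen hm1 hW hS11 hS2

end big

end Cfsg.Agent.Lib.PresSp.Two
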