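import Cfsg.Agent.Lib.PresSp.Two3
import Cfsg.Agent.Lib.PresSp.Theta

/-!
# Two generators for the symplectic group: rank two
-/

set_option autoImplicit false

namespace Cfsg.Agent.Lib.PresSp.Two

open Matrix Cfsg Cfsg.Agent.Lib.Classical.SympForm Cfsg.Agent.Lib.PresSp.Vec Cfsg.Agent.Lib.PresSp.Tgt
  Cfsg.Agent.Lib.PresSp.Surj Cfsg.Agent.Lib.PresSp.M2 Cfsg.Agent.Lib.PresSp.Mono
  Cfsg.Agent.Lib.PresSLn.TwoGen Cfsg.Agent.Lib.PresSp.Abs

variable {m : ℕ} {F : Type*} [Field F]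

lemma sn_eq_one (h2 : (2 : F) = 0) (i : Fin (m + 1)) : sn m F i = 1 := by
  have h := sn_sq (m := m) (F := F) i
  have h3 : (sn m F i - 1) * (sn m F i - 1) = 0 := by
    have : (sn m F i - 1) * (sn m F i - 1) = sn m F i * sn m F i - 2 * sn m F i + 1 := by ring
    rw [this, h, h2]
    ring_nf
    rw [show (2 : F) = 0 from h2]
  have := mul_self_eq_zero.1 h3
  exact sub_eq_zero.1 this

variable {G : Subgroup (Spg (1 + 1) F)}

/-- The tail of the proof of the rank two case. -/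
lemma gen_two_char_two [Finite F] (h2 : (2 : F) = 0) (hq : ∃ d : F, d ≠ 0 ∧ d ≠ 1)
    (ha : aa 1 F ∈ G)
    (hS1 : ∀ c, xS (ee (ix 1 le_rfl)) (ee (ix 0 (Nat.zero_le 1))) c ∈ G)
    (hS2 : ∀ c, xS (ee (ix 0 (Nat.zero_le 1))) (ff (ix 1 le_rfl)) c ∈ G)
    (hS3 : ∀ c, xS (ff (ix 0 (Nat.zero_le 1))) (ee (ix 1 le_rfl)) c ∈ G) (e : F) :
    tS (ee (ix 0 (Nat.zero_le 1))) e ∈ G := by
  classical
  haveI := Fintype.ofFinite F
  set i0 : Fin (1 + 1) := ix 0 (Nat.zero_le 1) with hi0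
  set i1 : Fin (1 + 1) := ix 1 le_rfl with hi1
  have h01 : i0 ≠ i1 := ix_ne _ _ (by omega)
  have hneg : ∀ x : F, -x = x := by
    intro x
    have : x + x = 0 := by
      rw [← two_mul, h2, zero_mul]
    exact neg_eq_of_add_eq_zero_right this
  have hsq : ∀ x : F, ∃ y : F, y ^ 2 = x := by
    intro x
    haveI : CharP F 2 := CharTwo.of_one_ne_zero_of_two_eq_zero one_ne_zero h2
    obtain ⟨y, hy⟩ := FiniteField.isSquare_of_char_two (ringChar.eq F 2) x
    exact ⟨y, by rw [hy, pow_two]⟩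
  have hs : ∀ i, sn 1 F i = 1 := sn_eq_one h2
  have ha0 : (aa 1 F).1 *ᵥ ee i0 = ee i1 := by
    rw [aa_ee]
    have := ww_ee (m := 1) (F := F) (k := 0) le_rfl
    rw [hs, one_smul] at this
    exact this
  have ha1e : (aa 1 F).1 *ᵥ ee i1 = ff i0 := by
    rw [aa_ee]
    have := ww_ee_last (m := 1) (F := F)
    rw [hs, one_smul] at this
    exact this
  have ha1f : (aa 1 F).1 *ᵥ ff i1 = ee i0 := by
    rw [aa_ff (Ne.symm h01)]
    have := ww_ff_last (m := 1) (F := F)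
    rw [hs, hneg, one_smul] at this
    exact this
  have ha0f' : (aa 1 F).1 *ᵥ (ff i0 + (-1 : F) • ee i0) = ff i1 := by
    rw [aa_ff0]
    have := ww_ff (m := 1) (F := F) (k := 0) le_rfl
    rw [hs, one_smul] at this
    exact this
  have ha0f : (aa 1 F).1 *ᵥ ff i0 = ff i1 + ee i1 := by
    have e1 : (ff i0 : VV (1 + 1) F) = (ff i0 + (-1 : F) • ee i0) + ee i0 := by
      module
    rw [e1, mulVec_add, ha0f', ha0]
  -- the first family
  have hF1 : ∀ c : F, xS (ff i0) (ff i1) c * tS (ff i0) (c ^ 2) ∈ G := by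
    intro c
    have h1 := mul_mem (mul_mem ha (hS3 c)) (inv_mem ha)
    have ho : sympForm (1 + 1) F (ff i1 + ee i1) (ff i0) = 0 := by
      rw [fm_add_left, fm_ff_ff, fm_ee_ff_ne (Ne.symm h01), add_zero]
    rw [xS_conj, ha0f, ha1e, xS_symm ho, xS_add_right (fm_ff_ff _ _) (fm_ff_ee_ne h01), fm_ee_ff_same,
      show -(c ^ 2 * (-1 : F)) = c ^ 2 by ring] at h1
    have hc : Commute (xS (ff i0) (ee i1) c) (tS (ff i0) (c ^ 2)) :=
      comm_xt (fm_ff_ee_ne h01) (fm_ff_ff _ _) (fm_ee_ff_ne (Ne.symm h01)) _ _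
    have e2 : xS (ff i0) (ff i1) c * tS (ff i0) (c ^ 2) =
        xS (ff i0) (ff i1) c * xS (ff i0) (ee i1) c * tS (ff i0) (c ^ 2) * (xS (ff i0) (ee i1) c)⁻¹ := by
      rw [mul_assoc (xS (ff i0) (ff i1) c), hc.eq]
      group
    rw [e2]
    exact mul_mem h1 (inv_mem (hS3 c))
  -- the second family
  have hF2 : ∀ c : F, xS (ff i0) (ff i1) c * tS (ff i1) (c ^ 2) ∈ G := by
    intro c
    have h1 : xS (ff i1) (ff i0 + (-1 : F) • ee i0) c ∈ G := by
      refine step_x' ha (ε := 1) (ε' := 1) (u' := ee i0) (v' := ff i1) ?_ ?_ (fm_ee_ff_ne h01) hS2 c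
      · rw [one_smul]
        exact ha1f
      · rw [one_smul]
        exact ha0f'
    have hff : sympForm (1 + 1) F (ff i1) (ff i0) = 0 := fm_ff_ff _ _
    have hfe : sympForm (1 + 1) F (ff i1) ((-1 : F) • ee i0) = 0 := by
      rw [fm_smul_right, fm_ff_ee_ne (Ne.symm h01), mul_zero]
    have hval : sympForm (1 + 1) F ((-1 : F) • ee i0) (ff i0) = 1 := by
      rw [fm_smul_left, fm_ee_ff_same]
      ring
    rw [xS_add_right hff hfe, hval, xS_smul_right (fm_ff_ee_ne (Ne.symm h01)),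
      xS_symm (fm_ff_ee_ne (Ne.symm h01)), xS_symm hff, show -(c ^ 2 * (1 : F)) = c ^ 2 by rw [mul_one, hneg]] at h1
    have hB := hS2 ((-1 : F) * c)
    have hc : Commute (xS (ee i0) (ff i1) ((-1 : F) * c)) (tS (ff i1) (c ^ 2)) :=
      comm_xt (fm_ee_ff_ne h01) (fm_ee_ff_ne h01) (fm_self _) _ _
    have e2 : xS (ff i0) (ff i1) c * tS (ff i1) (c ^ 2) =
        xS (ff i0) (ff i1) c * xS (ee i0) (ff i1) ((-1 : F) * c) * tS (ff i1) (c ^ 2) *
          (xS (ee i0) (ff i1) ((-1 : F) * c))⁻¹ := by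
      rw [mul_assoc (xS (ff i0) (ff i1) c), hc.eq]
      group
    rw [e2]
    exact mul_mem h1 (inv_mem hB)
  -- the sum of the long root elements
  have hP : ∀ d : F, tS (ff i0) d * tS (ff i1) d ∈ G := by
    intro d
    obtain ⟨c, rfl⟩ := hsq d
    have h1 := mul_mem (inv_mem (hF1 c)) (hF2 c)
    have e1 : (xS (ff i0) (ff i1) c * tS (ff i0) (c ^ 2))⁻¹ * (xS (ff i0) (ff i1) c * tS (ff i1) (c ^ 2)) =
        (tS (ff i0) (c ^ 2))⁻¹ * tS (ff i1) (c ^ 2) := by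
      group
    rw [e1, ← tS_neg, hneg] at h1
    exact h1
  -- the long root element at the second position
  have hT1 : ∀ x d : F, tS (ff i1) (x ^ 2 * d + x ^ 2 * d ^ 2) ∈ G := by
    intro x d
    have ho : sympForm (1 + 1) F (ee i0) (ff i1) = 0 := fm_ee_ff_ne h01
    have e0 : (xS (ee i0) (ff i1) x).1 *ᵥ ff i0 = ff i0 + x • ff i1 := by
      rw [xS_act ho, fm_ff_ee_same, fm_ff_ff]
      module
    have e1 : (xS (ee i0) (ff i1) x).1 *ᵥ ff i1 = ff i1 := by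
      rw [xS_act ho, fm_ff_ee_ne (Ne.symm h01), fm_ff_ff]
      simp
    have ho2 : sympForm (1 + 1) F (ff i0) (x • ff i1) = 0 := by
      rw [fm_smul_right, fm_ff_ff, mul_zero]
    have h1 := mul_mem (mul_mem (hS2 x) (hP d)) (inv_mem (hS2 x))
    have e3 : xS (ee i0) (ff i1) x * (tS (ff i0) d * tS (ff i1) d) * (xS (ee i0) (ff i1) x)⁻¹ =
        (xS (ee i0) (ff i1) x * tS (ff i0) d * (xS (ee i0) (ff i1) x)⁻¹) *
          (xS (ee i0) (ff i1) x * tS (ff i1) d * (xS (ee i0) (ff i1) x)⁻¹) := by group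
    rw [e3, tS_conj, tS_conj, e0, e1, tS_add_vec ho2, tS_smul, xS_smul_right (fm_ff_ff _ _)] at h1
    set A := tS (ff i0) d with hA
    set B := tS (ff i1) d with hB
    set C := tS (ff i1) (x ^ 2 * d) with hC
    set D := xS (ff i0) (ff i1) (x * d) with hD
    set K := tS (ff i1) ((x * d) ^ 2) with hK
    have hBC : Commute B C := comm_tt (fm_self _) _ _
    have hBD : Commute B D := (comm_xt (fm_ff_ff _ _) (fm_ff_ff _ _) (fm_ff_ff _ _) _ _).symm
    have hDK : Commute D K := comm_xt (fm_ff_ff _ _) (fm_ff_ff _ _) (fm_ff_ff _ _) _ _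
    have h3 : C * D ∈ G := by
      have h4 := mul_mem (inv_mem (hP d)) h1
      have e5 : (A * B)⁻¹ * (A * C * D * B) = C * D := by
        have : (A * B)⁻¹ * (A * C * D * B) = B⁻¹ * (C * (D * B)) := by group
        rw [this, ← hBD.eq, ← mul_assoc C, ← hBC.eq]
        group
      rwa [e5] at h4
    have h5 : C * K⁻¹ ∈ G := by
      have h6 := mul_mem h3 (inv_mem (hF2 (x * d)))
      have e6 : C * D * (D * K)⁻¹ = C * K⁻¹ := by
        rw [hDK.eq]
        group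
      rwa [e6] at h6
    have e7 : C * K⁻¹ = tS (ff i1) (x ^ 2 * d + x ^ 2 * d ^ 2) := by
      rw [hC, hK, ← tS_neg, ← tS_add, hneg, mul_pow]
    rwa [e7] at h5
  have hT1' : ∀ d : F, tS (ff i1) d ∈ G := by
    intro d
    obtain ⟨d₀, hd0, hd1⟩ := hq
    have hne : d₀ + d₀ ^ 2 ≠ 0 := by
      have e1 : d₀ + d₀ ^ 2 = d₀ * (d₀ + 1) := by ring
      rw [e1]
      refine mul_ne_zero hd0 ?_
      intro h
      apply hd1
      have : d₀ = -1 := eq_neg_of_add_eq_zero_left h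
      rw [this, hneg]
    obtain ⟨x, hx⟩ := hsq (d / (d₀ + d₀ ^ 2))
    have h1 := hT1 x d₀
    have e2 : x ^ 2 * d₀ + x ^ 2 * d₀ ^ 2 = d := by
      rw [← mul_add, hx]
      exact div_mul_cancel₀ _ hne
    rwa [e2] at h1
  -- the long root element at the first position
  have ho : sympForm (1 + 1) F (ee i1) (ee i0) = 0 := fm_ee_ee _ _
  have h1 := mul_mem (mul_mem (hS1 1) (hT1' e)) (inv_mem (hS1 1))
  have e1 : (xS (ee i1) (ee i0) (1 : F)).1 *ᵥ ff i1 = ff i1 + ee i0 := by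
    rw [xS_act ho, fm_ff_ee_same, fm_ff_ee_ne (Ne.symm h01)]
    module
  have ho1 : sympForm (1 + 1) F (ff i1) (ee i0) = 0 := fm_ff_ee_ne (Ne.symm h01)
  rw [tS_conj, e1, tS_add_vec ho1, xS_symm ho1] at h1
  have h3 := mul_mem (mul_mem (inv_mem (hT1' e)) h1) (inv_mem (hS2 e))
  have e2 : (tS (ff i1) e)⁻¹ * (tS (ff i1) e * tS (ee i0) e * xS (ee i0) (ff i1) e) *
      (xS (ee i0) (ff i1) e)⁻¹ = tS (ee i0) e := by group
  rwa [e2] at h3

/-- The case of rank two. -/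
theorem gen_two [Finite F] (hq : ∃ d : F, d ≠ 0 ∧ d ≠ 1) {ζ : Fˣ} (hζ : ∀ u : Fˣ, ∃ k : ℕ, ζ ^ k = u)
    (ha : aa 1 F ∈ G) (hb : tau le_rfl ζ * uu0 le_rfl ∈ G) : G = ⊤ := by
  classical
  haveI := Fintype.ofFinite F
  obtain ⟨hU, hτ⟩ := split le_rfl ζ hb
  set i0 : Fin (1 + 1) := ix 0 (Nat.zero_le 1) with hi0
  set i1 : Fin (1 + 1) := ix 1 le_rfl with hi1
  have h01 : i0 ≠ i1 := ix_ne _ _ (by omega)
  have ho : sympForm (1 + 1) F (ee i1) (ee i0) = 0 := fm_ee_ee _ _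
  have ha0 : (aa 1 F).1 *ᵥ ee i0 = sn 1 F i0 • ee i1 := by
    rw [aa_ee]
    exact ww_ee (k := 0) le_rfl
  have ha1e : (aa 1 F).1 *ᵥ ee i1 = sn 1 F i1 • ff i0 := by
    rw [aa_ee]
    exact ww_ee_last
  have ha1f : (aa 1 F).1 *ᵥ ff i1 = (-sn 1 F i1) • ee i0 := by
    rw [aa_ff (Ne.symm h01)]
    exact ww_ff_last
  -- the first root element
  have hS1 : ∀ c, xS (ee i1) (ee i0) c ∈ G := by
    have h1 := mul_mem (mul_mem ha hU) (inv_mem ha)
    have h2 : sympForm (1 + 1) F (ee i1) ((-sn 1 F i1) • ee i0) = 0 := by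
      rw [fm_smul_right, ho, mul_zero]
    rw [uu0, xS_conj, ha0, ha1f, xS_smul_left h2, xS_smul_right ho] at h1
    set c₀ := -sn 1 F i1 * (sn 1 F i0 * 1) with hc₀
    have hc₀0 : c₀ ≠ 0 := mul_ne_zero (neg_sn_ne _) (mul_ne_zero (sn_ne _) one_ne_zero)
    have key : ∀ x : F, x ∈ {x : F | xS (ee i1) (ee i0) (c₀ * x) ∈ G} := by
      refine forall_t2 (ζ : F) (Theta.gen_field hζ) _ ?_ ?_ ?_ ?_
      · show xS (ee i1) (ee i0) (c₀ * 0) ∈ G
        rw [mul_zero, xS_zero ho]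
        exact one_mem _
      · show xS (ee i1) (ee i0) (c₀ * 1) ∈ G
        rwa [mul_one]
      · intro x hx y hy
        show xS (ee i1) (ee i0) (c₀ * (x + y)) ∈ G
        rw [mul_add, xS_add ho]
        exact mul_mem hx hy
      · intro x hx
        show xS (ee i1) (ee i0) (c₀ * ((ζ : F) ^ 2 * x)) ∈ G
        have h5 := mul_mem (mul_mem hτ hx) (inv_mem hτ)
        have h6 : sympForm (1 + 1) F (ee i1) ((ζ : F) • ee i0) = 0 := by
          rw [fm_smul_right, ho, mul_zero]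
        rw [xS_conj, tau_ee1, tau_ee0, xS_smul_left h6, xS_smul_right ho] at h5
        have e : (ζ : F) * ((ζ : F) * (c₀ * x)) = c₀ * ((ζ : F) ^ 2 * x) := by ring
        rwa [e] at h5
    intro c
    have := key (c₀⁻¹ * c)
    have e : c₀ * (c₀⁻¹ * c) = c := by field_simp
    have h7 : xS (ee i1) (ee i0) (c₀ * (c₀⁻¹ * c)) ∈ G := this
    rwa [e] at h7
  have hS2 : ∀ c, xS (ee i0) (ff i1) c ∈ G := step_x' ha ha0 ha1f ho hS1
  have hS3 : ∀ c, xS (ff i0) (ee i1) c ∈ G :=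
    step_x ha (sn_ne _) (sn_ne _) ha1e ha0 (fm_ff_ee_ne h01) hS1
  -- the long root element
  have hY : ∀ e, tS (ee i0) e ∈ G := by
    by_cases h2 : (2 : F) = 0
    · exact gen_two_char_two h2 hq ha hS1 hS2 hS3
    · intro e
      have ho2 : sympForm (1 + 1) F (ee i0) (ff i1) = 0 := fm_ee_ff_ne h01
      have e1 : (xS (ee i1) (ee i0) (e / 2)).1 *ᵥ ff i1 = ff i1 + (e / 2) • ee i0 := by
        rw [xS_act ho, fm_ff_ee_same, fm_ff_ee_ne (Ne.symm h01)]
        module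
      have e2 : (xS (ee i1) (ee i0) (e / 2)).1 *ᵥ ee i0 = ee i0 := by
        rw [xS_act ho, fm_ee_ee, fm_ee_ee]
        simp
      have h1 := mul_mem (mul_mem (hS1 (e / 2)) (hS2 1)) (inv_mem (hS1 (e / 2)))
      have ho3 : sympForm (1 + 1) F (ee i0) ((e / 2) • ee i0) = 0 := by
        rw [fm_smul_right, fm_self, mul_zero]
      rw [xS_conj, e1, e2, xS_add_right ho2 ho3, fm_smul_left, ho2, xS_smul_right (fm_self _), xS_self] at h1
      have e3 : tS (ee i0) (-((1 : F) ^ 2 * (e / 2 * 0))) = 1 := by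
        rw [mul_zero, mul_zero, neg_zero, tS_zero]
      rw [e3, mul_one] at h1
      have h3 := mul_mem (inv_mem (hS2 1)) h1
      rw [inv_mul_cancel_left] at h3
      have e4 : (2 : F) * (e / 2 * 1) = e := by
        field_simp
      rwa [e4] at h3
  have hW : ww 1 F ∈ G := by
    have := mul_mem ha (inv_mem (hY 1))
    rwa [aa, mul_inv_cancel_right] at this
  exact final_gen le_rfl hW hY hS2

/-- Two generators of the symplectic group, provided the field is not the field of two elements when the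
rank is two. -/
theorem two_gen_sp [Finite F] {m : ℕ} (hm : 1 ≤ m) (hq : m = 1 → ∃ d : F, d ≠ 0 ∧ d ≠ 1) :
    ∃ a b : Spg (m + 1) F, Subgroup.closure {a, b} = ⊤ := by
  classical
  haveI := Fintype.ofFinite F
  obtain ⟨ζ, hζ⟩ := Theta.exists_zeta (F := F)
  refine ⟨aa m F, tau hm ζ * uu0 hm, ?_⟩
  have ha : aa m F ∈ Subgroup.closure {aa m F, tau hm ζ * uu0 hm} := Subgroup.subset_closure (by simp)
  have hb : tau hm ζ * uu0 hm ∈ Subgroup.closure {aa m F, tau hm ζ * uu0 hm} :=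
    Subgroup.subset_closure (by simp)
  by_cases h1 : m = 1
  · subst h1
    exact gen_two (hq rfl) hζ ha hb
  · exact gen_big (by omega) hζ ha hb

end Cfsg.Agent.Lib.PresSp.Two
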