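import Cfsg.Agent.Lib.PresSp.Surj
import Cfsg.Agent.Lib.Classical.SympSimple

/-!
# Transvections and Siegel elements in the symplectic group, in terms of their action on vectors
-/

set_option autoImplicit false

namespace Cfsg.Agent.Lib.PresSp.Vec

open Matrix Cfsg Cfsg.Agent.Lib.Classical.SympForm

variable {m : ℕ} {F : Type*} [Field F]

/-- The vectors. -/
abbrev VV (m : ℕ) (F : Type*) [Field F] : Type _ := Fin m ⊕ Fin m → F

/-- The symplectic group. -/
abbrev Spg (m : ℕ) (F : Type*) [Field F] : Type _ := Matrix.symplecticGroup (Fin m) F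

lemma fm_add_left (u v w : VV m F) : sympForm m F (u + v) w = sympForm m F u w + sympForm m F v w := by
  simp [sympForm, add_dotProduct]

lemma fm_add_right (u v w : VV m F) : sympForm m F u (v + w) = sympForm m F u v + sympForm m F u w := by
  simp [sympForm, mulVec_add, dotProduct_add]

lemma fm_smul_left (a : F) (u w : VV m F) : sympForm m F (a • u) w = a * sympForm m F u w := by
  simp [sympForm, smul_dotProduct]

lemma fm_smul_right (a : F) (u w : VV m F) : sympForm m F u (a • w) = a * sympForm m F u w := by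
  simp [sympForm, mulVec_smul, dotProduct_smul]

lemma fm_self (u : VV m F) : sympForm m F u u = 0 := sympBilin_isAlt u

lemma fm_anti (u v : VV m F) : sympForm m F v u = -sympForm m F u v := by
  have h := fm_self (u + v)
  rw [fm_add_left, fm_add_right, fm_add_right, fm_self, fm_self] at h
  linear_combination h

lemma fm_sub_right (u v w : VV m F) : sympForm m F u (v - w) = sympForm m F u v - sympForm m F u w := by
  rw [sub_eq_add_neg, fm_add_right, ← neg_one_smul F w, fm_smul_right]
  ring

lemma fm_neg_right (u w : VV m F) : sympForm m F u (-w) = -sympForm m F u w := by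
  rw [← neg_one_smul F w, fm_smul_right]
  ring

lemma mul_act (g h : Spg m F) (x : VV m F) : (g * h).1 *ᵥ x = g.1 *ᵥ (h.1 *ᵥ x) := by
  rw [mulVec_mulVec]
  rfl

lemma sp_ext {g h : Spg m F} (H : ∀ x : VV m F, g.1 *ᵥ x = h.1 *ᵥ x) : g = h :=
  Subtype.ext (Matrix.ext_iff_mulVec.2 H)

lemma one_act (x : VV m F) : (1 : Spg m F).1 *ᵥ x = x := one_mulVec x

lemma inv_act_act (g : Spg m F) (x : VV m F) : (g⁻¹).1 *ᵥ (g.1 *ᵥ x) = x := by
  rw [← mul_act, inv_mul_cancel, one_act]

lemma act_inv_act (g : Spg m F) (x : VV m F) : g.1 *ᵥ ((g⁻¹).1 *ᵥ x) = x := by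
  rw [← mul_act, mul_inv_cancel, one_act]

/-- The transvection. -/
def tS (v : VV m F) (c : F) : Spg m F := ⟨sympTransvection m v c, sympTransvection_mem v c⟩

lemma tS_act (v : VV m F) (c : F) (x : VV m F) : (tS v c).1 *ᵥ x = x + (c * sympForm m F x v) • v :=
  sympTransvection_mulVec v c x

lemma tS_conj (g : Spg m F) (v : VV m F) (c : F) : g * tS v c * g⁻¹ = tS (g.1 *ᵥ v) c :=
  Subtype.ext (sp_mul_sympTransvection_mul_inv g v c)

lemma tS_add (v : VV m F) (c d : F) : tS v (c + d) = tS v c * tS v d := by
  apply sp_ext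
  intro x
  simp only [mul_act, tS_act, fm_add_left, fm_smul_left, fm_self]
  module

lemma tS_zero (v : VV m F) : tS v (0 : F) = 1 := by
  apply sp_ext
  intro x
  simp only [tS_act, one_act]
  simp

lemma tS_neg (v : VV m F) (c : F) : tS v (-c) = (tS v c)⁻¹ := by
  apply eq_inv_of_mul_eq_one_left
  rw [← tS_add, neg_add_cancel, tS_zero]

lemma tS_smul (a : F) (v : VV m F) (c : F) : tS (a • v) c = tS v (a ^ 2 * c) :=
  Subtype.ext (sympTransvection_smul a v c)

/-- The Siegel element. -/
def xS (u v : VV m F) (c : F) : Spg m F := tS (u + v) c * tS u (-c) * tS v (-c)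

lemma xS_act {u v : VV m F} (h : sympForm m F u v = 0) (c : F) (x : VV m F) :
    (xS u v c).1 *ᵥ x = x + (c * sympForm m F x u) • v + (c * sympForm m F x v) • u := by
  have h' : sympForm m F v u = 0 := by rw [fm_anti u v, h, neg_zero]
  simp only [xS, mul_act, tS_act, fm_add_left, fm_add_right, fm_smul_left, fm_self, h, h']
  simp only [mul_zero, zero_add, add_zero]
  module

lemma xS_conj (g : Spg m F) (u v : VV m F) (c : F) : g * xS u v c * g⁻¹ = xS (g.1 *ᵥ u) (g.1 *ᵥ v) c := by
  have e : g * xS u v c * g⁻¹ = (g * tS (u + v) c * g⁻¹) * (g * tS u (-c) * g⁻¹) * (g * tS v (-c) * g⁻¹) := by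
    simp only [xS]
    group
  rw [e, tS_conj, tS_conj, tS_conj, xS, mulVec_add]

/-- A homomorphism preserves the form. -/
lemma fm_act (g : Spg m F) (u v : VV m F) : sympForm m F (g.1 *ᵥ u) (g.1 *ᵥ v) = sympForm m F u v :=
  (mem_symplecticGroup_iff g.1).1 g.2 u v

lemma xS_add {u v : VV m F} (h : sympForm m F u v = 0) (c d : F) : xS u v (c + d) = xS u v c * xS u v d := by
  have h' : sympForm m F v u = 0 := by rw [fm_anti u v, h, neg_zero]
  apply sp_ext
  intro x
  simp only [mul_act, xS_act h, fm_add_left, fm_smul_left, fm_self, h, h']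
  simp only [mul_zero, zero_add, add_zero]
  module

lemma xS_zero {u v : VV m F} (h : sympForm m F u v = 0) : xS u v (0 : F) = 1 := by
  apply sp_ext
  intro x
  rw [xS_act h, one_act]
  simp

lemma xS_neg {u v : VV m F} (h : sympForm m F u v = 0) (c : F) : xS u v (-c) = (xS u v c)⁻¹ := by
  apply eq_inv_of_mul_eq_one_left
  rw [← xS_add h, neg_add_cancel, xS_zero h]

lemma xS_symm {u v : VV m F} (h : sympForm m F u v = 0) (c : F) : xS u v c = xS v u c := by
  have h' : sympForm m F v u = 0 := by rw [fm_anti u v, h, neg_zero]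
  apply sp_ext
  intro x
  rw [xS_act h, xS_act h']
  module

lemma xS_smul_left {u v : VV m F} (h : sympForm m F u v = 0) (a c : F) : xS (a • u) v c = xS u v (a * c) := by
  have h2 : sympForm m F (a • u) v = 0 := by rw [fm_smul_left, h, mul_zero]
  apply sp_ext
  intro x
  rw [xS_act h2, xS_act h, fm_smul_right]
  module

lemma xS_smul_right {u v : VV m F} (h : sympForm m F u v = 0) (a c : F) : xS u (a • v) c = xS u v (a * c) := by
  have h2 : sympForm m F u (a • v) = 0 := by rw [fm_smul_right, h, mul_zero]
  apply sp_ext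
  intro x
  rw [xS_act h2, xS_act h, fm_smul_right]
  module

/-- Expanding a Siegel element in its second vector. -/
lemma xS_add_right {u v v' : VV m F} (h : sympForm m F u v = 0) (h' : sympForm m F u v' = 0) (c : F) :
    xS u (v + v') c = xS u v c * xS u v' c * tS u (-(c ^ 2 * sympForm m F v' v)) := by
  have h2 : sympForm m F u (v + v') = 0 := by rw [fm_add_right, h, h', add_zero]
  have h3 : sympForm m F v u = 0 := by rw [fm_anti u v, h, neg_zero]
  have h4 : sympForm m F v' u = 0 := by rw [fm_anti u v', h', neg_zero]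
  apply sp_ext
  intro x
  simp only [mul_act, xS_act h, xS_act h', xS_act h2, tS_act, fm_add_left, fm_add_right, fm_smul_left,
    fm_self, h, h', h3, h4]
  simp only [mul_zero, zero_add, add_zero]
  have : sympForm m F x v + c * sympForm m F x u * sympForm m F v' v = sympForm m F x v +
    c * sympForm m F x u * sympForm m F v' v := rfl
  module

/-- Expanding a transvection in its vector. -/
lemma tS_add_vec {u v : VV m F} (h : sympForm m F u v = 0) (c : F) :
    tS (u + v) c = tS u c * tS v c * xS u v c := by
  have h' : sympForm m F v u = 0 := by rw [fm_anti u v, h, neg_zero]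
  apply sp_ext
  intro x
  simp only [mul_act, xS_act h, tS_act, fm_add_left, fm_add_right, fm_smul_left, fm_self, h, h']
  simp only [mul_zero, zero_add, add_zero]
  module

lemma xS_self (u : VV m F) (c : F) : xS u u c = tS u (2 * c) := by
  apply sp_ext
  intro x
  rw [xS_act (fm_self u), tS_act]
  module

/-- Commuting of Siegel elements in an isotropic subspace. -/
lemma comm_xx {u v u' v' : VV m F} (h1 : sympForm m F u v = 0) (h2 : sympForm m F u' v' = 0)
    (h3 : sympForm m F u u' = 0) (h4 : sympForm m F u v' = 0) (h5 : sympForm m F v u' = 0)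
    (h6 : sympForm m F v v' = 0) (c d : F) : Commute (xS u v c) (xS u' v' d) := by
  have e3 : sympForm m F u' u = 0 := by rw [fm_anti u u', h3, neg_zero]
  have e4 : sympForm m F v' u = 0 := by rw [fm_anti u v', h4, neg_zero]
  have e5 : sympForm m F u' v = 0 := by rw [fm_anti v u', h5, neg_zero]
  have e6 : sympForm m F v' v = 0 := by rw [fm_anti v v', h6, neg_zero]
  change _ = _
  apply sp_ext
  intro x
  simp only [mul_act, xS_act h1, xS_act h2, fm_add_left, fm_smul_left, h3, h4, h5, h6, e3, e4, e5, e6]
  simp only [mul_zero, zero_add, add_zero]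
  module

lemma comm_xt {u v w : VV m F} (h1 : sympForm m F u v = 0) (h2 : sympForm m F u w = 0)
    (h3 : sympForm m F v w = 0) (c d : F) : Commute (xS u v c) (tS w d) := by
  have e2 : sympForm m F w u = 0 := by rw [fm_anti u w, h2, neg_zero]
  have e3 : sympForm m F w v = 0 := by rw [fm_anti v w, h3, neg_zero]
  change _ = _
  apply sp_ext
  intro x
  simp only [mul_act, xS_act h1, tS_act, fm_add_left, fm_smul_left, h2, h3, e2, e3]
  simp only [mul_zero, zero_add, add_zero]
  module

lemma comm_tt {v w : VV m F} (h : sympForm m F v w = 0) (c d : F) : Commute (tS v c) (tS w d) := by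
  have e : sympForm m F w v = 0 := by rw [fm_anti v w, h, neg_zero]
  change _ = _
  apply sp_ext
  intro x
  simp only [mul_act, tS_act, fm_add_left, fm_smul_left, h, e]
  simp only [mul_zero, zero_add, add_zero]
  module

end Cfsg.Agent.Lib.PresSp.Vec
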